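import Cfsg.Agent.Lib.LargeSubgroups.Basic
import Cfsg.Agent.Lib.Quasithin.CharP
import Cfsg.Agent.Lib.StronglyPEmbedded.Helpers

/-!
Local and parabolic characteristic `p` through centralisers of elements of order `p`.
-/

set_option autoImplicit false

namespace CfsgLib.LargeSubgroups

open Subgroup CfsgLib.Quasithin

variable {G : Type*} [Group G] [Finite G] {p : ℕ} [Fact p.Prime]

local notation "MC[" g "]" => Subgroup.map (MulEquiv.toMonoidHom (MulAut.conj g))

/-- `F*(G) = O_p(G)` iff `G` has characteristic `p`. -/
theorem genFitting_eq_iff_charP {H : Type*} [Group H] [Finite H] :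
    Cfsg.generalizedFittingSubgroup H = Cfsg.pCore p H ↔ CharPGroup p H :=
  ⟨fun h => CfsgLib.StronglyPEmbedded.centralizer_pCore_le_of_eq h,
    fun h => CfsgLib.StronglyPEmbedded.generalizedFittingSubgroup_eq_pCore h⟩

omit [Finite G] [Fact p.Prime] in
theorem map_conj_centralizer_singleton (g z : G) :
    MC[g] (centralizer ({z} : Set G)) = centralizer ({g * z * g⁻¹} : Set G) := by
  ext x
  rw [mem_map_conj_iff, mem_centralizer_singleton_iff, mem_centralizer_singleton_iff]
  constructor
  · intro h
    calc x * (g * z * g⁻¹) = g * (g⁻¹ * x * g * z) * g⁻¹ := by group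
      _ = g * (z * (g⁻¹ * x * g)) * g⁻¹ := by rw [h]
      _ = g * z * g⁻¹ * x := by group
  · intro h
    calc g⁻¹ * x * g * z = g⁻¹ * (x * (g * z * g⁻¹)) * g := by group
      _ = g⁻¹ * (g * z * g⁻¹ * x) * g := by rw [h]
      _ = z * (g⁻¹ * x * g) := by group

theorem charP_centralizer_conj {g z : G}
    (h : CharPGroup p (centralizer ({z} : Set G))) :
    CharPGroup p (centralizer ({g * z * g⁻¹} : Set G)) :=
  h.of_equiv (((MulAut.conj g).subgroupMap _).trans
    (MulEquiv.subgroupCongr (map_conj_centralizer_singleton g z)))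

/-- If a central element of the `p`-group `X` has centraliser of characteristic `p`, then the
normaliser of `X` has characteristic `p`. -/
theorem charP_normalizer_of_central {X : Subgroup G} (hX : IsPGroup p X) {z : G} (hzX : z ∈ X)
    (hz : ∀ x ∈ X, x * z = z * x) (h : CharPGroup p (centralizer ({z} : Set G))) :
    CharPGroup p (normalizer (X : Set G)) := by
  set C := centralizer ({z} : Set G) with hC
  set N := normalizer (X : Set G) with hN
  have hXC : X ≤ C := fun x hx => mem_centralizer_singleton_iff.2 (hz x hx)
  have hCXN : centralizer (X : Set G) ≤ N := centralizer_le_normalizer' X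
  have hCXC : centralizer (X : Set G) ≤ C := fun c hc =>
    mem_centralizer_singleton_iff.2 (mem_centralizer_iff.1 hc z hzX).symm
  have key : ∀ L : Subgroup G, X ≤ L →
      centralizer ((X.subgroupOf L : Subgroup L) : Set L) = (centralizer (X : Set G)).subgroupOf L := by
    intro L hXL
    ext a
    rw [mem_subgroupOf, mem_centralizer_iff, mem_centralizer_iff]
    exact ⟨fun ha x hx => congrArg Subtype.val (ha ⟨x, hXL hx⟩ hx), fun ha b hb => Subtype.ext (ha b hb)⟩
  have h1 : CharPGroup p (centralizer (X : Set G)) := by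
    have := charPGroup_centralizer h (T := X.subgroupOf C) hX.comap_subtype
    rw [key C hXC] at this
    exact this.of_equiv (subgroupOfEquivOfLe hCXC)
  haveI : (X.subgroupOf N).Normal := normal_in_normalizer
  refine charPGroup_of_centralizer (U := X.subgroupOf N) hX.comap_subtype ?_
  rw [key N le_normalizer]
  exact h1.of_equiv (subgroupOfEquivOfLe hCXN).symm

/-- A group of parabolic characteristic `p`: centralisers of central elements of Sylow subgroups. -/
theorem charP_centralizer_of_parabolic (hpar : Cfsg.IsOfParabolicCharacteristic p G) (S : Sylow p G)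
    {z : G} (hz1 : z ≠ 1) (hzS : z ∈ (S : Subgroup G)) (hz : ∀ x ∈ (S : Subgroup G), x * z = z * x) :
    CharPGroup p (centralizer ({z} : Set G)) := by
  set Z := zpowers z with hZ
  have hZp : IsPGroup p Z := S.2.to_le (zpowers_le.2 hzS)
  have hSC : (S : Subgroup G) ≤ centralizer ({z} : Set G) := fun x hx =>
    mem_centralizer_singleton_iff.2 (hz x hx)
  have hCN : centralizer ({z} : Set G) ≤ normalizer (Z : Set G) := by
    intro c hc
    refine centralizer_le_normalizer' Z ?_
    rintro _ ⟨k, rfl⟩
    exact ((show Commute c z from mem_centralizer_singleton_iff.1 hc).zpow_right k).symm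
  set N := normalizer (Z : Set G) with hN
  have h : CharPGroup p N := hpar Z hZp (by simpa [hZ] using hz1) ⟨S, hSC.trans hCN⟩
  have h' := charPGroup_centralizer h (T := Z.subgroupOf N) hZp.comap_subtype
  have e : centralizer ((Z.subgroupOf N : Subgroup N) : Set N) =
      (centralizer ({z} : Set G)).subgroupOf N := by
    ext a
    rw [mem_subgroupOf, mem_centralizer_iff, mem_centralizer_singleton_iff]
    constructor
    · intro ha
      exact (congrArg Subtype.val (ha ⟨z, le_normalizer (mem_zpowers z)⟩ (mem_zpowers z))).symm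
    · rintro ha b ⟨k, hk⟩
      refine Subtype.ext ?_
      have := ((show Commute (a : G) z from ha).zpow_right k).symm
      change (b : G) * (a : G) = (a : G) * (b : G)
      rw [← show z ^ k = (b : G) from hk]
      exact this
  rw [e] at h'
  exact h'.of_equiv (subgroupOfEquivOfLe hCN)

/-- The converse: parabolic characteristic `p` from the elements of order `p` of `Z(S)`. -/
theorem parabolic_of_charP_centralizers (S : Sylow p G)
    (h : ∀ z : G, z ≠ 1 → z ∈ (S : Subgroup G) → z ^ p = 1 →
      (∀ x ∈ (S : Subgroup G), x * z = z * x) → CharPGroup p (centralizer ({z} : Set G))) :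
    Cfsg.IsOfParabolicCharacteristic p G := by
  rintro R hRp hR1 ⟨T, hT⟩
  obtain ⟨z, hzR, hz1, hzp, hzT⟩ := exists_fixed_of_normalize T.2 hRp hR1 hT
  obtain ⟨g, hg⟩ := MulAction.exists_smul_eq G S T
  have hgS : MC[g] (S : Subgroup G) = (T : Subgroup G) := by rw [← hg]; rfl
  have hRT : R ≤ (T : Subgroup G) :=
    le_sup_right.trans (T.3 (IsPGroup.to_sup_of_normal_right' T.2 hRp hT) le_sup_left).le
  have hz' : g⁻¹ * z * g ∈ (S : Subgroup G) := mem_map_conj_iff.1 (hgS.ge (hRT hzR))
  have := charP_centralizer_conj (g := g) (h (g⁻¹ * z * g)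
    (fun e => hz1 (by
      have : z = g * (g⁻¹ * z * g) * g⁻¹ := by group
      rw [this, e]; group)) hz' (by
      have := conj_pow (i := p) (a := g⁻¹) (b := z)
      rw [inv_inv, hzp] at this
      rw [this]; group) (fun x hx => by
      have hc := hzT _ (hgS.le (conj_mem_map (g := g) hx))
      calc x * (g⁻¹ * z * g) = g⁻¹ * ((g * x * g⁻¹) * z) * g := by group
        _ = g⁻¹ * (z * (g * x * g⁻¹)) * g := by rw [hc.eq]
        _ = g⁻¹ * z * g * x := by group))
  rw [show g * (g⁻¹ * z * g) * g⁻¹ = z by group] at this
  exact charP_normalizer_of_central hRp hzR (fun x hx => (hzT x (hRT hx)).eq) this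

end CfsgLib.LargeSubgroups
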